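import Mathlib
import Cfsg.Agent.Lib.Helper50.HUPT.Defs

/-!
# Project HUPT (S3360), package [FIXM]

`y` of order `p` acting on a normal `r`-subgroup `M` of class at most 2: if `y` centralizes `Z(M)`
and `C_M(y)` is abelian, then `y` acts fixed-point-freely on `M / Z(M)`.
-/

set_option autoImplicit false

namespace Cfsg.Agent.Lib.Helper25.HUPT

open Cfsg.Agent.Lib.Helper50.HUPT

universe v

/-- an `r`-element killed by the prime `p ≠ r` is trivial. -/
theorem eq_one_of_pow_prime {G : Type v} [Group G] {M : Subgroup G} {p r : ℕ} (hp : p.Prime)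
    (hr : r.Prime) (hpr : p ≠ r) (hM : IsPGroup r M) {z : G} (hz : z ∈ M) (hzp : z ^ p = 1) :
    z = 1 := by
  obtain ⟨k, hk⟩ := hM ⟨z, hz⟩
  have hk' : z ^ (r ^ k) = 1 := by
    have := congrArg Subtype.val hk
    simpa using this
  have h1 : orderOf z ∣ p := orderOf_dvd_of_pow_eq_one hzp
  have h2 : orderOf z ∣ r ^ k := orderOf_dvd_of_pow_eq_one hk'
  have hcop : Nat.Coprime p (r ^ k) := Nat.Coprime.pow_right k ((Nat.coprime_primes hp hr).mpr hpr)
  have h3 : orderOf z = 1 := Nat.eq_one_of_dvd_coprimes hcop h1 h2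
  exact orderOf_eq_one_iff.mp h3

/-- if `y z = z y`, `y a y⁻¹ = z a` and `y ^ p = 1` then `z ^ p = 1`. -/
theorem pow_eq_one_of_conj {G : Type v} [Group G] {y a z : G} {p : ℕ} (hyp : y ^ p = 1)
    (hyz : y * z = z * y) (hya : y * a * y⁻¹ = z * a) : z ^ p = 1 := by
  have hcomm : Commute y z := hyz
  have key : ∀ k : ℕ, y ^ k * a * (y ^ k)⁻¹ = z ^ k * a := by
    intro k
    induction k with
    | zero => simp
    | succ k ih =>
      have h1 : y ^ (k + 1) * a * (y ^ (k + 1))⁻¹ = y * (y ^ k * a * (y ^ k)⁻¹) * y⁻¹ := by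
        rw [pow_succ' y k]; group
      rw [h1, ih]
      have h2 : y * (z ^ k * a) * y⁻¹ = (y * z ^ k * y⁻¹) * (y * a * y⁻¹) := by group
      rw [h2, hya]
      have h3 : y * z ^ k * y⁻¹ = z ^ k := by
        rw [(hcomm.pow_right k).eq, mul_inv_cancel_right]
      rw [h3, pow_succ, mul_assoc]
  have h := key p
  rw [hyp] at h
  simp only [one_mul, inv_one, mul_one] at h
  exact (mul_eq_right).mp h.symm

/-- in class 2, `d ↦ cm c d` is multiplicative on `M`. -/
theorem cm_mul_of_cl2 {G : Type v} [Group G] {M : Subgroup G} (hcl : Cl2 M) {c d1 d2 : G}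
    (hc : c ∈ M) (hd1 : d1 ∈ M) (hd2 : d2 ∈ M) : cm c (d1 * d2) = cm c d1 * cm c d2 := by
  have h := hcl c hc d2 hd2 d1⁻¹ (M.inv_mem hd1)
  unfold cm at h ⊢
  calc c * (d1 * d2) * c⁻¹ * (d1 * d2)⁻¹
      = c * d1 * c⁻¹ * ((c * d2 * c⁻¹ * d2⁻¹) * d1⁻¹) := by group
    _ = c * d1 * c⁻¹ * (d1⁻¹ * (c * d2 * c⁻¹ * d2⁻¹)) := by rw [h]
    _ = c * d1 * c⁻¹ * d1⁻¹ * (c * d2 * c⁻¹ * d2⁻¹) := by group

theorem pkgFixM : PkgFixM.{v} := by
  intro G _ _ M y p r hp hr hpr hMn hMr hyp hcl hZ hC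
  -- (i) elements with `cm y a` central in `M` commute with `y`
  have hI : ∀ a ∈ M, (∀ b ∈ M, cm y a * b = b * cm y a) → y * a = a * y := by
    intro a ha hcen
    have hzM : cm y a ∈ M := by
      unfold cm
      exact M.mul_mem (hMn.conj_mem a ha y) (M.inv_mem ha)
    have hyz : y * cm y a = cm y a * y := hZ _ hzM (fun b hb => hcen b hb)
    have hya : y * a * y⁻¹ = cm y a * a := by unfold cm; group
    have h1 : cm y a = 1 :=
      eq_one_of_pow_prime hp hr hpr hMr hzM (pow_eq_one_of_conj hyp hyz hya)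
    unfold cm at h1
    have h2 : y * a * y⁻¹ = a := by
      have := congrArg (· * a) h1
      simpa using this
    have := congrArg (· * y) h2
    simpa using this
  intro a ha hcen b hb
  have hya : y * a = a * y := hI a ha hcen
  -- the products `B n = b_0 b_1 ... b_(n-1)`, `b_i = y^i b y^(-i)`
  let B : ℕ → G := fun n => Nat.rec 1 (fun i acc => acc * (y ^ i * b * (y ^ i)⁻¹)) n
  have hB0 : B 0 = 1 := rfl
  have hBs : ∀ n, B (n + 1) = B n * (y ^ n * b * (y ^ n)⁻¹) := fun n => rfl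
  have hbi : ∀ i : ℕ, y ^ i * b * (y ^ i)⁻¹ ∈ M := fun i => hMn.conj_mem b hb (y ^ i)
  have hBM : ∀ n, B n ∈ M := by
    intro n
    induction n with
    | zero => rw [hB0]; exact M.one_mem
    | succ n ih => rw [hBs]; exact M.mul_mem ih (hbi n)
  have hBconj : ∀ n, y * B n * y⁻¹ = b⁻¹ * B (n + 1) := by
    intro n
    induction n with
    | zero => rw [hBs, hB0]; simp
    | succ n ih =>
      have h1 : y * B (n + 1) * y⁻¹ = (y * B n * y⁻¹) * (y * (y ^ n * b * (y ^ n)⁻¹) * y⁻¹) := by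
        rw [hBs n]; group
      have h2 : y * (y ^ n * b * (y ^ n)⁻¹) * y⁻¹ = y ^ (n + 1) * b * (y ^ (n + 1))⁻¹ := by
        rw [pow_succ' y n]; group
      rw [h1, ih, h2, hBs (n + 1), mul_assoc]
  -- `B p` commutes with `y`
  have hBp : y * B p * y⁻¹ = b⁻¹ * B p * b := by
    rw [hBconj p, hBs p, hyp]
    simp [mul_assoc]
  have hcmB : cm y (B p) = cm b⁻¹ (B p) := by
    unfold cm
    rw [hBp]
    group
  have hyB : y * B p = B p * y := by
    refine hI (B p) (hBM p) ?_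
    intro d hd
    rw [hcmB]
    exact hcl b⁻¹ (M.inv_mem hb) (B p) (hBM p) d hd
  have haB : a * B p = B p * a := hC a ha (B p) (hBM p) hya hyB
  -- `cm a (B n) = (cm a b) ^ n`
  have hcab : cm a b ∈ M := by
    unfold cm
    exact M.mul_mem (hMn.conj_mem b hb a) (M.inv_mem hb)
  have hycab : y * cm a b = cm a b * y :=
    hZ _ hcab (fun d hd => hcl a ha b hb d hd)
  have hayi : ∀ i : ℕ, Commute a (y ^ i) := fun i => (Commute.pow_right (show Commute a y from hya.symm) i)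
  have hcmi : ∀ i : ℕ, cm a (y ^ i * b * (y ^ i)⁻¹) = cm a b := by
    intro i
    have h1 : cm a (y ^ i * b * (y ^ i)⁻¹) = y ^ i * cm a b * (y ^ i)⁻¹ := by
      unfold cm
      have e1 : a * (y ^ i * b * (y ^ i)⁻¹) * a⁻¹ * (y ^ i * b * (y ^ i)⁻¹)⁻¹
          = (a * y ^ i) * b * ((y ^ i)⁻¹ * a⁻¹) * (y ^ i * b⁻¹ * (y ^ i)⁻¹) := by group
      have e2 : (y ^ i)⁻¹ * a⁻¹ = a⁻¹ * (y ^ i)⁻¹ := by
        rw [← mul_inv_rev, ← mul_inv_rev, (hayi i).eq]
      rw [e1, (hayi i).eq, e2]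
      group
    rw [h1]
    have h2 : Commute (y ^ i) (cm a b) := Commute.pow_left (show Commute y (cm a b) from hycab) i
    rw [h2.eq, mul_inv_cancel_right]
  have hcmB' : ∀ n, cm a (B n) = (cm a b) ^ n := by
    intro n
    induction n with
    | zero => rw [hB0]; unfold cm; simp
    | succ n ih =>
      rw [hBs, cm_mul_of_cl2 hcl ha (hBM n) (hbi n), ih, hcmi, pow_succ]
  have h1 : (cm a b) ^ p = 1 := by
    rw [← hcmB' p]
    unfold cm
    rw [haB]
    group
  have h2 : cm a b = 1 := eq_one_of_pow_prime hp hr hpr hMr hcab h1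
  unfold cm at h2
  have h3 : a * b * a⁻¹ = b := by
    have := congrArg (· * b) h2
    simpa using this
  have := congrArg (· * a) h3
  simpa using this

end Cfsg.Agent.Lib.Helper25.HUPT
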