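import Mathlib
import Cfsg.Agent.Lib.Helper50.HUPT.Defs
import Cfsg.Agent.Lib.Helper25.HUPT.FixM

/-!
# Project HUPT (S3360), package [MIN]

A `G`-normal subgroup of the normal `r`-subgroup `R`, not centralized by `x` and of minimal order
with these properties, has class at most 2 and its `r`-th powers are central in it.
-/

set_option autoImplicit false

namespace Cfsg.Agent.Lib.Helper25.HUPT

open Cfsg.Agent.Lib.Helper50.HUPT

universe v

/-- a nontrivial finite `r`-group has a normal subgroup `K ≠ ⊤` containing all `r`-th powers. -/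
theorem exists_index_prime {M : Type v} [Group M] [Finite M] [Nontrivial M] {r : ℕ}
    (hr : r.Prime) (hM : IsPGroup r M) :
    ∃ K : Subgroup M, K ≠ ⊤ ∧ ∀ a : M, a ^ r ∈ K := by
  haveI : Fact r.Prime := ⟨hr⟩
  obtain ⟨m, hm⟩ := IsPGroup.iff_card.mp hM
  have hm1 : 1 ≤ m := by
    rcases Nat.eq_zero_or_pos m with h | h
    · rw [h, pow_zero] at hm
      have := Finite.one_lt_card (α := M)
      omega
    · exact h
  obtain ⟨K, hK⟩ := Sylow.exists_subgroup_card_pow_prime r
    (show r ^ (m - 1) ∣ Nat.card M from hm ▸ pow_dvd_pow r (Nat.sub_le m 1))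
  have hidx : K.index = r := by
    have h1 := K.card_mul_index
    rw [hK, hm] at h1
    have h2 : r ^ m = r ^ (m - 1) * r := by
      rw [← pow_succ]
      congr 1
      omega
    rw [h2] at h1
    exact Nat.eq_of_mul_eq_mul_left (pow_pos hr.pos _) h1
  have hKn : K.Normal := by
    apply Subgroup.normal_of_index_eq_minFac_card
    rw [hidx, hm, Nat.pow_minFac (by omega), Nat.Prime.minFac_eq hr]
  refine ⟨K, ?_, ?_⟩
  · intro h
    rw [h, Subgroup.index_top] at hidx
    exact hr.one_lt.ne hidx
  · intro a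
    have h1 : (QuotientGroup.mk' K a) ^ Nat.card (M ⧸ K) = 1 := pow_card_eq_one'
    rw [← Subgroup.index_eq_card, hidx, ← map_pow] at h1
    exact (QuotientGroup.eq_one_iff _).mp h1

theorem pkgMin : PkgMin.{v} := by
  intro G _ _ R x p r hp hr hpr hRn hRr hxp hx
  classical
  have hex : ∃ n, ∃ M : Subgroup G, M.Normal ∧ M ≤ R ∧ ¬ (∀ a ∈ M, x * a = a * x) ∧
      Nat.card M = n := ⟨_, R, hRn, le_rfl, hx, rfl⟩
  obtain ⟨M, hMn, hMR, hMx, hMc⟩ := Nat.find_spec hex
  have hmin : ∀ N : Subgroup G, N.Normal → N ≤ R → ¬ (∀ a ∈ N, x * a = a * x) →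
      Nat.card M ≤ Nat.card N := by
    intro N h1 h2 h3
    rw [hMc]
    exact Nat.find_min' hex ⟨N, h1, h2, h3, rfl⟩
  have hMr : IsPGroup r M := hRr.to_le hMR
  -- proper `G`-normal subgroups of `M` are centralized by `x`
  have hprop : ∀ L : Subgroup G, L.Normal → L ≤ M → L ≠ M → ∀ a ∈ L, x * a = a * x := by
    intro L hLn hLM hLne
    by_contra hL
    have h1 := hmin L hLn (hLM.trans hMR) hL
    exact hLne (Subgroup.eq_of_le_of_card_ge hLM h1)
  -- KEY: proper `G`-normal subgroups of `M` are central in `M`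
  have key : ∀ N : Subgroup G, N.Normal → N ≤ M → N ≠ M → ∀ n ∈ N, ∀ c ∈ M, c * n = n * c := by
    intro N hNn hNM hNne
    have hxN := hprop N hNn hNM hNne
    have hu : ∀ a ∈ M, ∀ b ∈ N, cm x a * b = b * cm x a := by
      intro a ha b hb
      have h1 : a⁻¹ * b * a ∈ N := by
        have := hNn.conj_mem b hb a⁻¹
        simpa using this
      have h2 := hxN _ h1
      have h3 := hxN b hb
      have e1 : x⁻¹ * (a⁻¹ * b * a) = (a⁻¹ * b * a) * x⁻¹ := by
        have h4 : Commute x (a⁻¹ * b * a) := h2
        exact h4.inv_left.eq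
      unfold cm
      calc x * a * x⁻¹ * a⁻¹ * b = x * a * (x⁻¹ * (a⁻¹ * b * a)) * a⁻¹ := by group
        _ = x * a * ((a⁻¹ * b * a) * x⁻¹) * a⁻¹ := by rw [e1]
        _ = (x * b) * a * x⁻¹ * a⁻¹ := by group
        _ = b * x * a * x⁻¹ * a⁻¹ := by rw [h3]
        _ = b * (x * a * x⁻¹ * a⁻¹) := by group
    by_contra hcon
    push Not at hcon
    obtain ⟨n, hn, c, hc, hne⟩ := hcon
    haveI := hNn
    haveI := hMn
    have hCn : (M ⊓ Subgroup.centralizer (N : Set G)).Normal := inferInstance
    have hCM : M ⊓ Subgroup.centralizer (N : Set G) ≤ M := inf_le_left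
    have hCne : M ⊓ Subgroup.centralizer (N : Set G) ≠ M := by
      intro h
      have hcC : c ∈ M ⊓ Subgroup.centralizer (N : Set G) := by rw [h]; exact hc
      exact hne ((Subgroup.mem_centralizer_iff.mp hcC.2 n hn).symm)
    have hxC := hprop _ hCn hCM hCne
    apply hMx
    intro a ha
    have huM : cm x a ∈ M := by
      unfold cm
      exact M.mul_mem (hMn.conj_mem a ha x) (M.inv_mem ha)
    have huC : cm x a ∈ M ⊓ Subgroup.centralizer (N : Set G) :=
      ⟨huM, Subgroup.mem_centralizer_iff.mpr (fun b hb => (hu a ha b hb).symm)⟩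
    have hxu : x * cm x a = cm x a * x := hxC _ huC
    have hxa : x * a * x⁻¹ = cm x a * a := by unfold cm; group
    have hup := pow_eq_one_of_conj hxp hxu hxa
    have hu1 : cm x a = 1 := eq_one_of_pow_prime hp hr hpr hRr (hMR huM) hup
    unfold cm at hu1
    have h2 : x * a * x⁻¹ = a := by
      have := congrArg (· * a) hu1
      simpa using this
    have := congrArg (· * x) h2
    simpa using this
  -- `M` is a nontrivial `r`-group
  haveI hMnt : Nontrivial M := by
    rw [Subgroup.nontrivial_iff_exists_ne_one]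
    by_contra hcon
    push Not at hcon
    apply hMx
    intro a ha
    rw [hcon a ha]
    simp
  haveI : Fact r.Prime := ⟨hr⟩
  haveI : Group.IsNilpotent M := hMr.isNilpotent
  refine ⟨M, hMn, hMR, hMx, ?_, ?_⟩
  · -- class 2
    haveI := hMn
    have hN1n : (⁅M, M⁆ : Subgroup G).Normal := inferInstance
    have hN1M : ⁅M, M⁆ ≤ M := Subgroup.commutator_le_left M M
    have hN1ne : ⁅M, M⁆ ≠ M := by
      intro h
      have h1 : commutator M < ⊤ := Group.IsSolvable.commutator_lt_top_of_nontrivial M
      have h2 : (commutator M).map M.subtype = (⊤ : Subgroup M).map M.subtype := by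
        rw [Subgroup.map_subtype_commutator, h, ← MonoidHom.range_eq_map, Subgroup.range_subtype]
      exact h1.ne (Subgroup.map_injective M.subtype_injective h2)
    intro a ha b hb c hc
    have hmem : cm a b ∈ ⁅M, M⁆ := by
      have := Subgroup.commutator_mem_commutator ha hb
      rwa [commutatorElement_def] at this
    exact (key _ hN1n hN1M hN1ne _ hmem c hc).symm
  · -- `r`-th powers are central
    obtain ⟨K, hKne, hKpow⟩ := exists_index_prime hr hMr
    set S : Set G := {y | ∃ a ∈ M, y = a ^ r} with hS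
    have hN2n : (Subgroup.normalClosure S).Normal := inferInstance
    have hN2H : Subgroup.normalClosure S ≤ K.map M.subtype := by
      unfold Subgroup.normalClosure
      rw [Subgroup.closure_le]
      intro y hy
      obtain ⟨b, ⟨a, ha, rfl⟩, hconj⟩ := Group.mem_conjugatesOfSet_iff.mp hy
      obtain ⟨g, hg⟩ := isConj_iff.mp hconj
      have hga : g * a * g⁻¹ ∈ M := hMn.conj_mem a ha g
      have hy' : y = (g * a * g⁻¹) ^ r := by
        rw [← hg, conj_pow]
      rw [hy']
      exact ⟨⟨g * a * g⁻¹, hga⟩ ^ r, hKpow _, rfl⟩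
    have hHM : K.map M.subtype ≤ M := by
      rintro _ ⟨k, _, rfl⟩
      exact k.2
    have hN2M : Subgroup.normalClosure S ≤ M := hN2H.trans hHM
    have hN2ne : Subgroup.normalClosure S ≠ M := by
      intro h
      apply hKne
      rw [eq_top_iff]
      intro k _
      have hkN : (k : G) ∈ Subgroup.normalClosure S := by
        rw [h]
        exact k.2
      have hk : (k : G) ∈ K.map M.subtype := hN2H hkN
      obtain ⟨k', hk', hkk⟩ := hk
      have : k' = k := Subtype.ext hkk
      rw [← this]
      exact hk'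
    intro a ha b hb
    have hmem : a ^ r ∈ Subgroup.normalClosure S := Subgroup.subset_normalClosure ⟨a, ha, rfl⟩
    exact (key _ hN2n hN2M hN2ne _ hmem b hb).symm

end Cfsg.Agent.Lib.Helper25.HUPT
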